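import Cfsg.Agent.H124.SP.Uniq
import Cfsg.Agent.H770.Hen.JDefs

/-!
# S5175, case J3: uniqueness of the fusion system on the same `S` (helper124)
-/

set_option autoImplicit false

namespace Cfsg.Agent.H124.J3

open Cfsg Cfsg.FusionSystem Cfsg.Agent.H756.HM Cfsg.Agent.H802 Cfsg.Agent.H770.Hen Cfsg.Agent.H124.SP

universe u

variable {Ω : Type*} [Group Ω] {S : Subgroup Ω} {F : FusionSystem S} {K : Type} [Field K]
  {σ : K ≃+* K} {R : Rel Ω K σ}

theorem cj_V (R : Rel Ω K σ) : cj R.y R.Vg = R.Wg := by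
  apply le_antisymm
  · rintro _ ⟨v, hv, rfl⟩
    obtain ⟨a, c, rfl⟩ := R.mem_Vg.1 hv
    show R.y * R.e a 0 c * R.y⁻¹ ∈ R.Wg
    rw [R.y_e, map_zero]
    exact R.e_mem_W _ _
  · intro w hw
    obtain ⟨b, c, rfl⟩ := R.mem_Wg.1 hw
    refine ⟨R.e (σ b) 0 (σ c), R.e_mem_V _ _, ?_⟩
    show R.y * R.e (σ b) 0 (σ c) * R.y⁻¹ = _
    rw [R.y_e, map_zero, mul_zero, add_zero, R.sig, R.sig]

theorem relIndex_T (R : Rel Ω K σ) : R.T.relIndex R.Sg = 2 := by
  show (R.T.subgroupOf R.Sg).index = 2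
  rw [Subgroup.index_eq_two_iff]
  refine ⟨⟨R.y, R.y_mem_Sg⟩, ?_⟩
  rintro ⟨s, hs⟩
  rw [Subgroup.mem_subgroupOf, Subgroup.mem_subgroupOf]
  show Xor (s * R.y ∈ R.T) (s ∈ R.T)
  obtain ⟨a, b, c, rfl | rfl⟩ := R.mem_Sg.1 hs
  · exact Or.inr ⟨R.e_mem_T _ _ _, R.e_y_not_mem_T _ _ _⟩
  · refine Or.inl ⟨?_, R.e_y_not_mem_T _ _ _⟩
    obtain ⟨k, hk⟩ := R.y_sq
    rw [mul_assoc, hk, R.zc_eq]
    exact R.T.mul_mem (R.e_mem_T _ _ _) (R.e_mem_T _ _ _)

theorem tf_of_sys [Finite S] (D : FSys F R) [Fintype K] (hc : Fintype.card K = 4) : TF S R.T R.Vg R.y where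
  sup := by
    rw [cj_V]
    apply le_antisymm
    · intro t ht
      obtain ⟨a, b, c, rfl⟩ := R.mem_T.1 ht
      have h1 : R.e a b c = R.e 0 b 0 * R.e a 0 c := by
        rw [R.e_mul]; simp
      rw [h1]
      exact mul_mem (Subgroup.mem_sup_right (R.e_mem_W _ _)) (Subgroup.mem_sup_left (R.e_mem_V _ _))
    · exact sup_le R.Vg_le_T R.Wg_le_T
  el := fun v hv => R.sq_Vg hv
  nor := D.norV
  cent := D.centV
  x_mem := D.y_mem
  x_nor := by
    refine Subgroup.mem_normalizer_iff.2 fun t => ?_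
    constructor
    · rintro ⟨a, b, c, rfl⟩
      rw [R.y_e]
      exact R.e_mem_T _ _ _
    · rintro ⟨a, b, c, h⟩
      have h1 : t = R.y⁻¹ * R.e a b c * R.y := by rw [← h]; group
      rw [h1, R.y_inv_e]
      exact R.e_mem_T _ _ _
  x_not := R.y_not_mem_T
  x_sq := by
    obtain ⟨k, hk⟩ := R.y_sq
    rw [sq, hk, R.zc_eq]
    exact R.e_mem_T _ _ _
  cen := by
    intro v hv w hw hvw
    rw [cj_V] at hw ⊢
    obtain ⟨a, c, rfl⟩ := R.mem_Vg.1 hv
    obtain ⟨b, d, rfl⟩ := R.mem_Wg.1 hw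
    rw [R.e_mul, R.e_mul] at hvw
    obtain ⟨-, -, h3⟩ := R.e_inj hvw
    have h4 : a * b = 0 := by linear_combination h3
    rcases mul_eq_zero.1 h4 with rfl | rfl
    · exact Or.inl (R.e_mem_W _ _)
    · exact Or.inr (R.e_mem_V _ _)
  idx := by
    conv_lhs => rw [D.S_eq]
    exact relIndex_T R
  card := by
    have h1 : R.Vg ⊓ cj R.y R.Vg = R.Zg := by
      rw [cj_V]
      apply le_antisymm
      · rintro x ⟨h1, h2⟩
        exact R.Vg_inf_Wg h1 h2
      · exact le_inf R.Zg_le_Vg R.Zg_le_Wg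
    rw [h1, R.card_Vg, R.card_Zg, Nat.card_eq_fintype_card, hc]

theorem hfree [Fintype K] (J : JSys F R) (z : Ω) (hz : z ∈ R.Vg ⊓ cj R.y R.Vg)
    (h1 : z * (R.y * z * R.y⁻¹) = 1) : ∃ d ∈ R.Vg ⊓ cj R.y R.Vg, z = d * (R.y * d * R.y⁻¹)⁻¹ := by
  rw [cj_V] at hz ⊢
  have hz' := R.Vg_inf_Wg hz.1 hz.2
  obtain ⟨c, rfl⟩ := R.mem_Zg.1 hz'
  rw [R.y_e, R.e_mul] at h1
  obtain ⟨-, -, h2⟩ := R.e_eq_one h1
  have h3 : c + c * c = 0 := by
    have := J.frob c
    simp only [mul_zero, add_zero, zero_mul] at h2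
    rw [this] at h2
    exact h2
  have two := R.two
  -- an element with `d + d² = 1`
  obtain ⟨d, hd⟩ : ∃ d : K, d + d * d = 1 := by
    classical
    have hex : ∃ d : K, d ∉ ({0, 1} : Finset K) := by
      by_contra hcon
      push Not at hcon
      have h4 : Fintype.card K ≤ 2 := by
        rw [← Finset.card_univ]
        calc (Finset.univ : Finset K).card ≤ ({0, 1} : Finset K).card :=
              Finset.card_le_card fun x _ => hcon x
          _ ≤ 2 := Finset.card_le_two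
      rw [J.card] at h4
      omega
    obtain ⟨d, hd⟩ := hex
    simp only [Finset.mem_insert, Finset.mem_singleton, not_or] at hd
    have h4 : d ^ (Fintype.card K - 1) = 1 := FiniteField.pow_card_sub_one_eq_one d hd.1
    rw [J.card] at h4
    have h5 : (d - 1) * (d * d + d + 1) = 0 := by
      have : d ^ 3 = 1 := h4
      linear_combination this
    rcases mul_eq_zero.1 h5 with h6 | h6
    · exact absurd (sub_eq_zero.1 h6) hd.2
    · exact ⟨d, by linear_combination h6 - two 1⟩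
  have key : ∀ d : K, R.e 0 0 d * (R.y * R.e 0 0 d * R.y⁻¹)⁻¹ = R.e 0 0 (d + d * d) := by
    intro d
    have h7 : σ (d + 0 * 0) = d * d := by rw [mul_zero, add_zero, J.frob]
    rw [R.y_e, R.e_inv, R.e_mul, h7]
    congr 1
    · simp
    · simp
    · rw [map_zero]
      linear_combination -(two (d * d))
  rcases mul_eq_zero.1 (show c * (1 + c) = 0 by linear_combination h3) with h4 | h4
  · refine ⟨R.e 0 0 0, ⟨R.e_mem_V _ _, R.e_mem_W _ _⟩, ?_⟩
    rw [key, h4]; simp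
  · refine ⟨R.e 0 0 d, ⟨R.e_mem_V _ _, R.e_mem_W _ _⟩, ?_⟩
    rw [key, hd]
    congr 1
    linear_combination h4 - two 1

/-- **JU**, the uniqueness of `F` on the same `S`. -/
theorem stJU : StJU.{u} := by
  intro Ω _ S _ hS F F' hF hF' K _ _ σ R J J' hV hR0 hess P
  have h := tf_of_sys J.fs J.card
  refine le_of_essential hS hF F' (h.autGroup_S_le hS hF hF' hV (fun z hz h1 => hfree J z hz h1)) (fun Q hQ _ => ?_) P
  rcases hess Q hQ with rfl | rfl | rfl | rfl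
  · exact hV.le
  · have h1 := h.autGroup_W_le hV.le
    rwa [cj_V] at h1
  · exact TF.autGroup_T_le hS h hF hF' hV
  · exact hR0.le

end Cfsg.Agent.H124.J3
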